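import Groth.Agent.S0002
import Groth.Agent.Grpsch.PicGrp
import Groth.Agent.Ega2.QCohLocal
import Groth.Agent.CohqB.FiniteType2
import Groth.Agent.Sga7.H543.CutSec
import Groth.Agent.Sga7.H543.RegFib

/-!
# Lifting divisors from the closed fibre

`R` a discrete valuation ring, `p : X ⟶ Spec R` proper and flat, `j : Z ⟶ X` its closed fibre.

* `subsingleton_HH`: `H^n(Z, j^* F) = 0` implies `H^n(X, F) = 0` for `F` invertible;
* `exists_lift`: `H^1(Z, j^* F) = 0` implies that `Γ(X, F) → Γ(Z, j^* F)` is surjective;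
* `exists_divisor`: `L` invertible with `j^* L ≅ O_Z`, `D` an effective Cartier divisor with effective Cartier
  restriction to `Z` and `H^1(Z, j^* O(D)) = 0`: there is an effective Cartier divisor `D'`, flat over `R`, with
  the same restriction to `Z` and `L ⊗ O(-D') ≅ O(-D)`.
-/

set_option autoImplicit false
universe u

open CategoryTheory CategoryTheory.Limits AlgebraicGeometry Opposite TopologicalSpace

namespace Groth.Agent.Sga7.H543.DivLift

open Groth.Agent.Fdesc.LocGen Groth.Agent.Divis.EffCartier Groth.Agent.Divis.CartierBasic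
open Groth.Agent.Divis.CartierStalk Groth.Agent.Sga7.H543.SpecFib Groth.Agent.Sga7.H543.Van
open Groth.Agent.Sga7.H543.CutSec Groth.Agent.Sga7.H543.RegFib Groth.Agent.Dix.IdealModCartier
open Groth.Agent.LoccohB.HHmap Groth.Agent.Grpsch.PicGrp
open IsLocalRing

/-- Multiplication by a function regular on affine opens is injective on invertible modules. -/
theorem mono_smulHom {X : Scheme.{u}} {F : X.Modules} (hF : PicF.IsInvertible F) {r : Γ(X, ⊤)}
    (hr : ∀ U : X.affineOpens, ores (le_top : U.1 ≤ ⊤) r ∈ nonZeroDivisors Γ(X, U.1)) :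
    Mono (smulHom F r) := by
  apply CutSec.mono_of_injective
  intro W s s' h
  refine res_ext F (ι := {V : X.affineOpens // V.1 ≤ W ∧ ∃ e : Γ(F, V.1), IsGen e})
    (fun V => V.1.1) (fun V => V.2.1) ?_ ?_
  · intro x hx
    obtain ⟨U, e, hxU, he⟩ := exists_affine_isGen hF x
    obtain ⟨V, hxV, hV⟩ := exists_affine_mem_le (W ⊓ U.1) x ⟨hx, hxU⟩
    exact Opens.mem_iSup.2 ⟨⟨V, hV.trans inf_le_left, _, he.res (hV.trans inf_le_right)⟩, hxV⟩
  · rintro ⟨V, hV, e, he⟩
    obtain ⟨a, ha⟩ := he.exists_eq (res F hV s)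
    obtain ⟨b, hb⟩ := he.exists_eq (res F hV s')
    change res F hV s = res F hV s'
    have h1 : res F hV ((smulHom F r).app W s) = res F hV ((smulHom F r).app W s') :=
      congrArg (res F hV) h
    rw [smulHom_app', smulHom_app', res_smul, res_smul, ores_ores, ha, hb, smul_smul, smul_smul] at h1
    have h2 := he.ext h1
    have h3 : ores (hV.trans le_top : V.1 ≤ ⊤) r * (a - b) = 0 := by
      rw [mul_sub, sub_eq_zero]; exact h2
    have h4 := (mul_left_mem_nonZeroDivisors_eq_zero_iff (hr V)).1 h3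
    rw [ha, hb, sub_eq_zero.1 h4]

theorem isCoh_of_isInvertible {X : Scheme.{u}} {L : X.Modules} (hL : PicF.IsInvertible L) :
    Coh.IsCoh L := by
  have h1 : Coh.IsQCoh L := Groth.Agent.Ega2.QCohLocal.isQCoh_of_isInvertible hL
  refine ⟨h1, ?_⟩
  refine Groth.Agent.CohqB.FiniteType2.isFT_of_finite_sections _ fun x => ?_
  obtain ⟨U, e, hx, he⟩ := exists_affine_isGen hL x
  refine ⟨U.1, hx, U.2, ?_⟩
  refine Module.Finite.of_surjective (LinearMap.toSpanSingleton Γ(X, U.1) Γ(L, U.1) e) ?_
  intro m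
  obtain ⟨a, rfl⟩ := he.exists_eq m
  exact ⟨a, rfl⟩

section

variable {R : Type u} [CommRing R] [IsDomain R] [IsDiscreteValuationRing R] {X Z : Scheme.{u}}
  {p : X ⟶ Spec (CommRingCat.of R)} {j : Z ⟶ X} {q : Z ⟶ Spec (CommRingCat.of (ResidueField R))}
  (hj : IsPullback j q p (Spec.map (CommRingCat.ofHom (residue R))))

include hj

/-- Vanishing of cohomology from the closed fibre. -/
theorem subsingleton_HH [Flat p] [IsProper p] {F : X.Modules} (hF : PicF.IsInvertible F) (n : ℕ)
    (hn : Subsingleton (Coh.HH Z ((Scheme.Modules.pullback j).obj F) n)) :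
    Subsingleton (Coh.HH X F n) := by
  obtain ⟨π, hπ⟩ := IsDiscreteValuationRing.exists_irreducible R
  have hcl := isClosedImmersion_of_isPullback hj
  have hm := hπ.maximalIdeal_eq
  have hmono := mono_smulHom hF (r := fn p π) (fn_mem_nonZeroDivisors p hπ.ne_zero)
  have hsurj := smul_surjective j (ker_ideal hj hm) F n hn
  let : X.Over (Spec (CommRingCat.of R)) := ⟨p⟩
  have : IsProper (X ↘ Spec (CommRingCat.of R)) := ‹IsProper p›
  have hfin : Module.Finite R (Coh.HH X F n) := Groth.Agent.S0002.result R X F (isCoh_of_isInvertible hF) n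
  have htop : (⊤ : Submodule R (Coh.HH X F n)) ≤ maximalIdeal R • (⊤ : Submodule R (Coh.HH X F n)) := by
    intro x _
    obtain ⟨y, rfl⟩ := hsurj x
    have h1 : (show Coh.Γtop X from fn p π) • y = π • y := rfl
    rw [h1]
    exact Submodule.smul_mem_smul (hm ▸ Ideal.mem_span_singleton_self π) trivial
  have hbot := Submodule.eq_bot_of_le_smul_of_le_jacobson_bot (maximalIdeal R)
    (⊤ : Submodule R (Coh.HH X F n)) hfin.1 htop (maximalIdeal_le_jacobson _)
  exact ⟨fun a b => by
    have ha : a ∈ (⊤ : Submodule R (Coh.HH X F n)) := trivial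
    have hb : b ∈ (⊤ : Submodule R (Coh.HH X F n)) := trivial
    rw [hbot, Submodule.mem_bot] at ha hb
    rw [ha, hb]⟩

/-- Lifting of sections from the closed fibre. -/
theorem exists_lift [Flat p] [IsProper p] {F : X.Modules} (hF : PicF.IsInvertible F)
    (h1 : Subsingleton (Coh.HH Z ((Scheme.Modules.pullback j).obj F) 1))
    (s : Γ((Scheme.Modules.pullback j).obj F, ⊤)) : ∃ t : Γ(F, ⊤), pullTop j t = s := by
  obtain ⟨π, hπ⟩ := IsDiscreteValuationRing.exists_irreducible R
  have hcl := isClosedImmersion_of_isPullback hj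
  have hmono := mono_smulHom hF (r := fn p π) (fn_mem_nonZeroDivisors p hπ.ne_zero)
  exact CutSec.exists_lift j (ker_ideal hj hπ.maximalIdeal_eq) F (subsingleton_HH hj hF 1 h1) s

/-- Lifting of divisors from the closed fibre. -/
theorem exists_divisor [Flat p] [IsProper p] {D : X.IdealSheafData}
    (hD : BlowUp.IsEffCartierIdeal D) (hDj : BlowUp.IsEffCartierIdeal (D.comap j))
    {L : X.Modules} (hL : PicF.IsInvertible L)
    (ht : Nonempty ((Scheme.Modules.pullback j).obj L ≅ Coh.structureModule Z))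
    (hH : ∀ (N : Z.Modules) (hN : PicF.IsInvertible N),
      mk N hN = (mk (ClSub.idealMod (D.comap j)) (isInvertible_idealMod hDj))⁻¹ →
        Subsingleton (Coh.HH Z N 1)) :
    ∃ D' : X.IdealSheafData, BlowUp.IsEffCartierIdeal D' ∧ D'.comap j = D.comap j ∧
      Flat (D'.subschemeι ≫ p) ∧
      Nonempty (CohB1.tensorMod L (ClSub.idealMod D') ≅ ClSub.idealMod D) := by
  obtain ⟨π, hπ⟩ := IsDiscreteValuationRing.exists_irreducible R
  have hln : IsLocallyNoetherian X := LocallyOfFiniteType.isLocallyNoetherian p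
  -- the module `N = O(D)`
  obtain ⟨N, hN, hND⟩ : ∃ (N : X.Modules) (hN : PicF.IsInvertible N),
      mk N hN = (mk (ClSub.idealMod D) (isInvertible_idealMod hD))⁻¹ := by
    obtain ⟨N, hN, h⟩ := exists_mk (mk (ClSub.idealMod D) (isInvertible_idealMod hD))⁻¹
    exact ⟨N, hN, h.symm⟩
  have hinv : ClSub.IsInverseOf N (ClSub.idealMod D) := by
    have h1 : mk N hN * mk (ClSub.idealMod D) (isInvertible_idealMod hD) = 1 := by
      rw [hND, inv_mul_cancel]
    rw [mk_mul_mk, mk_eq_one_iff] at h1
    exact h1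
  obtain ⟨t₀, ht₀⟩ := exists_canonical hN hD hinv
  -- restriction to the closed fibre
  have hLone : mk ((Scheme.Modules.pullback j).obj L) (isInvertible_pullback j hL) = 1 :=
    (mk_eq_one_iff _).2 ht
  have hM := isInvertible_tensorMod hL hN
  have hclass : mk ((Scheme.Modules.pullback j).obj (CohB1.tensorMod L N)) (isInvertible_pullback j hM) =
      mk ((Scheme.Modules.pullback j).obj N) (isInvertible_pullback j hN) := by
    rw [← pull_mk j hM, ← mk_mul_mk hL hN, map_mul, pull_mk, pull_mk, hLone, one_mul]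
  obtain ⟨θ⟩ := (mk_eq_iff _ _).1 hclass.symm
  have hvan : IsVan (θ.hom.app ⊤ (pullTop j t₀)) (D.comap j) := (ht₀.pull j).app θ.hom
  have hHM : Subsingleton (Coh.HH Z ((Scheme.Modules.pullback j).obj (CohB1.tensorMod L N)) 1) := by
    apply hH _ (isInvertible_pullback j hM)
    rw [hclass, ← pull_mk j hN, hND, map_inv, pull_mk]
    congr 1
    exact (mk_eq_iff _ _).2 (pullback_idealMod j hD hDj)
  obtain ⟨t, htt⟩ := exists_lift hj hM hHM (θ.hom.app ⊤ (pullTop j t₀))
  obtain ⟨D', hD'⟩ := exists_isVan hM t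
  have hcomap : D'.comap j = D.comap j := by
    have h2 := hD'.pull j
    rw [htt] at h2
    exact h2.unique hvan
  obtain ⟨heff, hflat⟩ := isEff_and_flat hj hπ (D := D') (hcomap ▸ hDj) (by
    intro x
    obtain ⟨U, hx, e, a, -, -, h⟩ := hD' x
    exact ⟨_, h⟩)
  refine ⟨D', heff, hcomap, hflat, ?_⟩
  have h3 := hD'.isInverseOf hM heff
  have h4 : mk (CohB1.tensorMod L N) hM * mk (ClSub.idealMod D') (isInvertible_idealMod heff) = 1 := by
    rw [mk_mul_mk, mk_eq_one_iff]
    exact h3
  rw [← mk_eq_iff (isInvertible_tensorMod hL (isInvertible_idealMod heff)) (isInvertible_idealMod hD),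
    ← mk_mul_mk]
  rw [← mk_mul_mk hL hN, hND] at h4
  calc _ = mk L hL * (mk (ClSub.idealMod D) (isInvertible_idealMod hD))⁻¹ *
        mk (ClSub.idealMod D') (isInvertible_idealMod heff) *
          mk (ClSub.idealMod D) (isInvertible_idealMod hD) := by
        rw [mul_right_comm (mk L hL), inv_mul_cancel_right]
    _ = _ := by rw [h4, one_mul]

end

end Groth.Agent.Sga7.H543.DivLift
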