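import Groth.Agent.Sga7.H543.DivLift
import Groth.Agent.Sga7.H543.SecStalk
import Groth.Agent.Sga7.H543.EtPoint

/-!
# Lifting of sums of sections over a henselian discrete valuation ring

`R` a henselian discrete valuation ring, `p : X ⟶ Spec R` proper and flat with closed fibre `j : Z ⟶ X`, `y i` sections of
`p` with effective Cartier ideals and distinct closed points, `L` an invertible module on `X` with `j^* L ≅ O_Z`
and `H^1(Z, O(∑ y_i)) = 0`.  Then there are sections `y' i` with the same closed points and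
`L ⊗ O(-∑ y'_i) ≅ O(-∑ y_i)`.
-/

set_option autoImplicit false
universe u

open CategoryTheory CategoryTheory.Limits AlgebraicGeometry Opposite TopologicalSpace

namespace Groth.Agent.Sga7.H543.Lift

open Groth.Agent.Fdesc.LocGen Groth.Agent.Divis.EffCartier Groth.Agent.Divis.CartierBasic
open Groth.Agent.Divis.CartierStalk Groth.Agent.Sga7.H543.SpecFib Groth.Agent.Sga7.H543.Van
open Groth.Agent.Sga7.H543.RegFib Groth.Agent.Sga7.H543.SecStalk Groth.Agent.Dix.IdealModCartier
open Groth.Agent.Grpsch.PicGrp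
open IsLocalRing

section General

variable {X Y : Scheme.{u}}

theorem isEff_prod {ι : Type*} (s : Finset ι) (D : ι → X.IdealSheafData)
    (hD : ∀ i, BlowUp.IsEffCartierIdeal (D i)) : BlowUp.IsEffCartierIdeal (∏ i ∈ s, D i) := by
  classical
  induction s using Finset.induction_on with
  | empty => rw [Finset.prod_empty]; exact isEff_top
  | insert a s has ih =>
    rw [Finset.prod_insert has]
    exact isEff_mul (hD a) ih

/-- The class of the ideal module of an effective Cartier ideal. -/
noncomputable def cl (D : X.IdealSheafData) (hD : BlowUp.IsEffCartierIdeal D) : Pic X :=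
  mk (ClSub.idealMod D) (isInvertible_idealMod hD)

lemma cl_congr {D E : X.IdealSheafData} (h : D = E) (hD : BlowUp.IsEffCartierIdeal D)
    (hE : BlowUp.IsEffCartierIdeal E) : cl D hD = cl E hE := by
  subst h; rfl

lemma cl_mul {D E : X.IdealSheafData} (hD : BlowUp.IsEffCartierIdeal D)
    (hE : BlowUp.IsEffCartierIdeal E) : cl (D * E) (isEff_mul hD hE) = cl D hD * cl E hE := by
  obtain ⟨e⟩ := idealMod_mul hD hE
  exact (mk_eq_iff _ _).2 ⟨e.symm⟩

lemma cl_one : cl (1 : X.IdealSheafData) isEff_top = 1 := by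
  unfold cl
  rw [mk_eq_one_iff]
  obtain ⟨e⟩ := idealMod_principal (X := X) (D := 1) (a := 1) (by
    intro W hW
    rw [map_one]
    refine ⟨one_mem _, ?_⟩
    rw [Ideal.span_singleton_one]
    rfl)
  exact ⟨e.symm⟩

theorem cl_prod {ι : Type*} (s : Finset ι) (D : ι → X.IdealSheafData)
    (hD : ∀ i, BlowUp.IsEffCartierIdeal (D i)) :
    cl (∏ i ∈ s, D i) (isEff_prod s D hD) = ∏ i ∈ s, cl (D i) (hD i) := by
  classical
  induction s using Finset.induction_on with
  | empty => exact (cl_congr Finset.prod_empty _ isEff_top).trans cl_one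
  | insert a s has ih =>
    refine (cl_congr (Finset.prod_insert has) _ (isEff_mul (hD a) (isEff_prod s D hD))).trans ?_
    rw [cl_mul (hD a) (isEff_prod s D hD), ih, Finset.prod_insert has]

theorem comap_prod {ι : Type*} (s : Finset ι) (D : ι → X.IdealSheafData) (f : Y ⟶ X) :
    (∏ i ∈ s, D i).comap f = ∏ i ∈ s, (D i).comap f := by
  apply ext_stalkIdeal
  intro y
  rw [stalkIdeal_comap, stalkIdeal_prod, stalkIdeal_prod, ← Ideal.mapHom_apply, map_prod]
  exact Finset.prod_congr rfl fun i _ => (stalkIdeal_comap (D i) f y).symm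

lemma eq_of_specializes_aux {A : Type*} [CommRing A] [IsLocalRing A] {I : Ideal A} {b : A}
    (hb : b ∈ maximalIdeal A) (h : I ⊔ Ideal.span {b} = ⊤) : I = ⊤ := by
  by_contra hI
  have h1 := IsLocalRing.le_maximalIdeal hI
  have h2 : I ⊔ Ideal.span {b} ≤ maximalIdeal A :=
    sup_le h1 ((Ideal.span_singleton_le_iff_mem _).2 hb)
  rw [h, top_le_iff] at h2
  exact (maximalIdeal.isMaximal A).ne_top h2

end General

section Local

variable {R : Type u} [CommRing R] [IsDomain R] [IsDiscreteValuationRing R] {X Z : Scheme.{u}}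
  {p : X ⟶ Spec (CommRingCat.of R)} {j : Z ⟶ X} {q : Z ⟶ Spec (CommRingCat.of (ResidueField R))}
  (hj : IsPullback j q p (Spec.map (CommRingCat.ofHom (residue R)))) {π : R} (hπ : Irreducible π)

lemma germ_fn_mem {x : X} (hx : p x = closedPoint R) (hm : maximalIdeal R = Ideal.span {π}) :
    X.presheaf.germ ⊤ x trivial (fn p π) ∈ maximalIdeal (X.presheaf.stalk x) := by
  rw [mem_maximalIdeal, mem_nonunits_iff, isUnit_germ_fn_iff, not_not, hx]
  change π ∈ maximalIdeal R
  rw [hm]
  exact Ideal.mem_span_singleton_self π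

lemma apply_closedPoint {y : Spec (CommRingCat.of R) ⟶ X} (hy : y ≫ p = 𝟙 _) :
    p (y (closedPoint R)) = closedPoint R := by
  rw [← Scheme.Hom.comp_apply, hy]
  rfl

include hj hπ in
/-- Ideals with the same restriction to the closed fibre agree modulo `π`. -/
lemma sup_eq_of_comap_eq {D D' : X.IdealSheafData} (h : D'.comap j = D.comap j) {x : X}
    (hx : p x = closedPoint R) :
    stalkIdeal D' x ⊔ Ideal.span {X.presheaf.germ ⊤ x trivial (fn p π)} =
      stalkIdeal D x ⊔ Ideal.span {X.presheaf.germ ⊤ x trivial (fn p π)} := by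
  have hcl := isClosedImmersion_of_isPullback hj
  obtain ⟨z, rfl⟩ := (mem_range_iff hj x).2 hx
  have hs := stalkIdeal_ker hj hπ.maximalIdeal_eq (j z)
  rw [← ker_stalkMap, RingHom.ker_eq_comap_bot] at hs
  have h1 := congrArg (fun E => (stalkIdeal E z).comap (j.stalkMap z).hom) h
  simp only [stalkIdeal_comap] at h1
  rw [Ideal.comap_map_of_surjective _ (j.stalkMap_surjective z),
    Ideal.comap_map_of_surjective _ (j.stalkMap_surjective z), hs] at h1
  exact h1

include hπ in
/-- `π` is regular modulo the ideal of a section. -/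
lemma mem_ker_of_mul_mem [IsSeparated p] {y : Spec (CommRingCat.of R) ⟶ X} (hy : y ≫ p = 𝟙 _)
    {b : X.presheaf.stalk (y (closedPoint R))}
    (hb : X.presheaf.germ ⊤ (y (closedPoint R)) trivial (fn p π) * b ∈
      stalkIdeal y.ker (y (closedPoint R))) : b ∈ stalkIdeal y.ker (y (closedPoint R)) := by
  have := isClosedImmersion_section hy
  rw [← ker_stalkMap, RingHom.mem_ker] at hb ⊢
  rw [map_mul] at hb
  have h1 : (y.stalkMap (closedPoint R)).hom (X.presheaf.germ ⊤ (y (closedPoint R)) trivial (fn p π)) =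
      (Spec (CommRingCat.of R)).presheaf.germ ⊤ (closedPoint R) trivial (fn (y ≫ p) π) :=
    Scheme.Hom.germ_stalkMap_apply y ⊤ (closedPoint R) trivial (fn p π)
  have hfl : Flat (y ≫ p) := by rw [hy]; infer_instance
  have h2 := germ_fn_mem_nonZeroDivisors (y ≫ p) hπ.ne_zero (closedPoint R)
  rw [h1] at hb
  exact (mul_left_mem_nonZeroDivisors_eq_zero_iff h2).1 hb

variable {ι : Type*} [Fintype ι] {y : ι → (Spec (CommRingCat.of R) ⟶ X)}
  (hy : ∀ i, y i ≫ p = 𝟙 _)

include hy in
/-- The stalk of the product of the ideals at the closed point of a section. -/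
lemma stalkIdeal_prod_ker [IsSeparated p] (hd : Function.Injective fun i => y i (closedPoint R)) (i : ι) :
    stalkIdeal (∏ l, (y l).ker) (y i (closedPoint R)) = stalkIdeal (y i).ker (y i (closedPoint R)) := by
  classical
  rw [stalkIdeal_prod, Finset.prod_eq_single i]
  · intro l _ hl
    rw [stalkIdeal_ker_eq_top (hy l) (apply_closedPoint (hy i)) (fun h => hl (hd h))]
    exact Ideal.one_eq_top.symm
  · exact fun h => absurd (Finset.mem_univ i) h

include hy in
lemma stalkIdeal_prod_ker_eq_top [IsSeparated p] {x : X} (hx : p x = closedPoint R)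
    (hne : ∀ i, y i (closedPoint R) ≠ x) : stalkIdeal (∏ l, (y l).ker) x = ⊤ := by
  rw [stalkIdeal_prod, ← Ideal.one_eq_top]
  refine Finset.prod_eq_one fun l _ => ?_
  rw [stalkIdeal_ker_eq_top (hy l) hx (hne l), Ideal.one_eq_top]

end Local

section Main

variable {R : Type u} [CommRing R] [IsDomain R] [IsDiscreteValuationRing R] {X Z : Scheme.{u}}
  {p : X ⟶ Spec (CommRingCat.of R)} {j : Z ⟶ X} {q : Z ⟶ Spec (CommRingCat.of (ResidueField R))}
  (hj : IsPullback j q p (Spec.map (CommRingCat.ofHom (residue R))))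

include hj in
/-- The restriction of the ideal of a section to the closed fibre is effective Cartier. -/
theorem isEff_comap [IsSeparated p] [Flat p] [IsLocallyNoetherian X] {y : Spec (CommRingCat.of R) ⟶ X}
    (hy : y ≫ p = 𝟙 _) (hc : BlowUp.IsEffCartierIdeal y.ker) :
    BlowUp.IsEffCartierIdeal (y.ker.comap j) := by
  obtain ⟨π, hπ⟩ := IsDiscreteValuationRing.exists_irreducible R
  have hcl := isClosedImmersion_of_isPullback hj
  have : IsLocallyNoetherian Z := by
    have : LocallyOfFiniteType j := inferInstance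
    exact LocallyOfFiniteType.isLocallyNoetherian j
  rw [isEffCartierIdeal_iff_stalkIdeal]
  intro z
  rw [stalkIdeal_comap]
  by_cases hz : y (closedPoint R) = j z
  · obtain ⟨g, hg, h1⟩ := exists_stalkIdeal_eq_span hc (j z)
    refine ⟨(j.stalkMap z).hom g, ?_, by rw [h1, Ideal.map_span, Set.image_singleton]⟩
    have key : ∀ b : X.presheaf.stalk (j z),
        X.presheaf.germ ⊤ (j z) trivial (fn p π) * b ∈ stalkIdeal y.ker (j z) →
          b ∈ stalkIdeal y.ker (j z) := by
      rw [← hz]
      exact fun b hb => mem_ker_of_mul_mem hπ hy hb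
    rw [mem_nonZeroDivisors_iff_right]
    intro b hb
    obtain ⟨b, rfl⟩ := j.stalkMap_surjective z b
    rw [← map_mul, ← RingHom.mem_ker, ker_stalkMap, stalkIdeal_ker hj hπ.maximalIdeal_eq,
      Ideal.mem_span_singleton'] at hb
    obtain ⟨c, hc'⟩ := hb
    have h2 : c ∈ stalkIdeal y.ker (j z) := by
      apply key
      rw [mul_comm, hc', h1]
      exact Ideal.mem_span_singleton'.2 ⟨b, rfl⟩
    rw [h1, Ideal.mem_span_singleton'] at h2
    obtain ⟨d, rfl⟩ := h2
    rw [← RingHom.mem_ker, ker_stalkMap, stalkIdeal_ker hj hπ.maximalIdeal_eq,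
      Ideal.mem_span_singleton']
    refine ⟨d, ?_⟩
    apply (mul_cancel_right_mem_nonZeroDivisors hg).1
    rw [← hc']
    ring
  · have h1 := stalkIdeal_ker_eq_top hy ((mem_range_iff hj (j z)).1 ⟨z, rfl⟩) hz
    refine ⟨1, one_mem _, ?_⟩
    rw [h1, Ideal.map_top, Ideal.span_singleton_one]

lemma closedPoint_eq {y y' : Spec (CommRingCat.of R) ⟶ X}
    (h : Spec.map (CommRingCat.ofHom (residue R)) ≫ y' = Spec.map (CommRingCat.ofHom (residue R)) ≫ y) :
    y' (closedPoint R) = y (closedPoint R) := by
  have h1 := congrArg (fun g : Spec (CommRingCat.of (ResidueField R)) ⟶ X => g (closedPoint (ResidueField R))) h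
  simp only [Scheme.Hom.comp_apply, residue_apply] at h1
  exact h1

include hj in
/-- Sections of the flat closed subscheme defined by `D'`. -/
theorem exists_section_of_divisor [HenselianLocalRing R] [IsProper p] {D' : X.IdealSheafData}
    [Flat (D'.subschemeι ≫ p)] {y : Spec (CommRingCat.of R) ⟶ X} (hy : y ≫ p = 𝟙 _) {π : R}
    (hπ : Irreducible π) (hle : D'.comap j ≤ y.ker.comap j)
    (hmax : stalkIdeal D' (y (closedPoint R)) ⊔
      Ideal.span {X.presheaf.germ ⊤ (y (closedPoint R)) trivial (fn p π)} =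
        maximalIdeal (X.presheaf.stalk (y (closedPoint R)))) :
    ∃ y' : Spec (CommRingCat.of R) ⟶ X, y' ≫ p = 𝟙 _ ∧
      Spec.map (CommRingCat.ofHom (residue R)) ≫ y' = Spec.map (CommRingCat.ofHom (residue R)) ≫ y ∧
      D' ≤ y'.ker := by
  have hclj := isClosedImmersion_of_isPullback hj
  -- the closed point of the section, in the closed fibre
  obtain ⟨z, hz, -⟩ : ∃ z : Spec (CommRingCat.of (ResidueField R)) ⟶ Z,
      z ≫ j = Spec.map (CommRingCat.ofHom (residue R)) ≫ y ∧ z ≫ q = 𝟙 _ := by
    refine ⟨hj.lift (Spec.map (CommRingCat.ofHom (residue R)) ≫ y) (𝟙 _) ?_, hj.lift_fst _ _ _,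
      hj.lift_snd _ _ _⟩
    rw [Category.assoc, hy, Category.comp_id, Category.id_comp]
  have hlift : D'.subschemeι.ker ≤ (Spec.map (CommRingCat.ofHom (residue R)) ≫ y).ker := by
    rw [Scheme.IdealSheafData.ker_subschemeι, ← Scheme.IdealSheafData.map_bot,
      Scheme.IdealSheafData.le_map_iff_comap_le, ← hz, Scheme.IdealSheafData.comap_comp]
    refine (Scheme.IdealSheafData.comap_mono z hle).trans ?_
    change (y.ker.comap j).comap z ≤ ⊥
    rw [← Scheme.IdealSheafData.comap_comp, hz, Scheme.IdealSheafData.comap_comp]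
    have h4 : y.ker.comap y ≤ ⊥ := by
      rw [← Scheme.IdealSheafData.le_map_iff_comap_le, Scheme.IdealSheafData.map_bot]
    refine (Scheme.IdealSheafData.comap_mono (Spec.map (CommRingCat.ofHom (residue R))) h4).trans ?_
    exact (Scheme.IdealSheafData.comap_bot _).le
  let t : Spec (CommRingCat.of (ResidueField R)) ⟶ D'.subscheme :=
    IsClosedImmersion.lift D'.subschemeι (Spec.map (CommRingCat.ofHom (residue R)) ≫ y) hlift
  have ht : t ≫ D'.subschemeι = Spec.map (CommRingCat.ofHom (residue R)) ≫ y :=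
    IsClosedImmersion.lift_fac _ _ _
  have htf : t ≫ D'.subschemeι ≫ p = Spec.map (CommRingCat.ofHom (residue R)) := by
    rw [← Category.assoc, ht, Category.assoc, hy, Category.comp_id]
  have hpt : D'.subschemeι (t (closedPoint (ResidueField R))) = y (closedPoint R) := by
    rw [← Scheme.Hom.comp_apply, ht, Scheme.Hom.comp_apply, residue_apply]
  have hpt' : (D'.subschemeι ≫ p) (t (closedPoint (ResidueField R))) = closedPoint R := by
    rw [Scheme.Hom.comp_apply, hpt, apply_closedPoint hy]
  obtain ⟨a, ha, ha'⟩ := EtPoint.exists_section (D'.subschemeι ≫ p) t htf (by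
    apply le_antisymm
    · rw [Ideal.map_le_iff_le_comap]
      intro b hb
      rw [Ideal.mem_comap, mem_maximalIdeal, mem_nonunits_iff]
      rw [mem_maximalIdeal, mem_nonunits_iff] at hb
      exact fun h => hb (IsLocalHom.map_nonunit
        (f := ((D'.subschemeι ≫ p).stalkMap (t (closedPoint (ResidueField R)))).hom) b h)
    · intro b hb
      obtain ⟨c, rfl⟩ := stalkMap_subschemeι_surjective D' _ b
      have hc : c ∈ maximalIdeal (X.presheaf.stalk
          (D'.subschemeι (t (closedPoint (ResidueField R))))) := by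
        rw [mem_maximalIdeal, mem_nonunits_iff] at hb ⊢
        exact fun h => hb (h.map _)
      have key : ∀ (x : X) (_ : x = y (closedPoint R)) (c : X.presheaf.stalk x),
          c ∈ maximalIdeal (X.presheaf.stalk x) →
            ∃ d ∈ stalkIdeal D' x, ∃ e, d + e * X.presheaf.germ ⊤ x trivial (fn p π) = c := by
        rintro x rfl c hc
        rw [← hmax, Submodule.mem_sup] at hc
        obtain ⟨d, hd, e', he', h⟩ := hc
        obtain ⟨e, rfl⟩ := Ideal.mem_span_singleton'.1 he'
        exact ⟨d, hd, e, h⟩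
      obtain ⟨d, hd, e, rfl⟩ := key _ hpt c hc
      have h0 : (D'.subschemeι.stalkMap (t (closedPoint (ResidueField R)))).hom d = 0 := by
        rw [← RingHom.mem_ker, ker_stalkMap_subschemeι]
        exact hd
      rw [map_add, h0, zero_add, map_mul]
      apply Ideal.mul_mem_left
      have h1 : (D'.subschemeι.stalkMap (t (closedPoint (ResidueField R)))).hom
          (X.presheaf.germ ⊤ (D'.subschemeι (t (closedPoint (ResidueField R)))) trivial (fn p π)) =
          ((D'.subschemeι ≫ p).stalkMap (t (closedPoint (ResidueField R)))).hom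
            ((Spec (CommRingCat.of R)).presheaf.germ ⊤ _ trivial
              ((Scheme.ΓSpecIso (CommRingCat.of R)).inv.hom π)) := by
        refine (Scheme.Hom.germ_stalkMap_apply D'.subschemeι ⊤ _ trivial (fn p π)).trans ?_
        exact (Scheme.Hom.germ_stalkMap_apply (D'.subschemeι ≫ p) ⊤ _ trivial _).symm
      rw [h1]
      apply Ideal.mem_map_of_mem
      have h2 : ∀ (s : Spec (CommRingCat.of R)) (_ : s = closedPoint R),
          (Spec (CommRingCat.of R)).presheaf.germ ⊤ s trivial
            ((Scheme.ΓSpecIso (CommRingCat.of R)).inv.hom π) ∈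
              maximalIdeal ((Spec (CommRingCat.of R)).presheaf.stalk s) := by
        rintro s rfl
        rw [maximalIdeal_stalk_Spec hπ.maximalIdeal_eq]
        exact Ideal.mem_span_singleton_self _
      exact h2 _ hpt')
  refine ⟨a ≫ D'.subschemeι, by rw [Category.assoc, ha], by rw [← Category.assoc, ha', ht], ?_⟩
  have h3 := a.le_ker_comp D'.subschemeι
  rwa [Scheme.IdealSheafData.ker_subschemeι] at h3

include hj in
/-- **Lifting of sums of sections.** -/
theorem exists_sections [HenselianLocalRing R] [IsProper p] [Flat p] {ι : Type*} [Fintype ι]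
    (y : ι → (Spec (CommRingCat.of R) ⟶ X)) (hy : ∀ i, y i ≫ p = 𝟙 _)
    (hc : ∀ i, BlowUp.IsEffCartierIdeal (y i).ker)
    (hd : Function.Injective fun i => y i (closedPoint R)) {L : X.Modules} (hL : PicF.IsInvertible L)
    (ht : Nonempty ((Scheme.Modules.pullback j).obj L ≅ Coh.structureModule Z))
    (hcj : ∀ i, BlowUp.IsEffCartierIdeal ((y i).ker.comap j))
    (hH : ∀ (N : Z.Modules) (hN : PicF.IsInvertible N),
      mk N hN = ∏ i, (cl ((y i).ker.comap j) (hcj i))⁻¹ → Subsingleton (Coh.HH Z N 1)) :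
    ∃ y' : ι → (Spec (CommRingCat.of R) ⟶ X), (∀ i, y' i ≫ p = 𝟙 _) ∧
      (∀ i, Spec.map (CommRingCat.ofHom (residue R)) ≫ y' i =
        Spec.map (CommRingCat.ofHom (residue R)) ≫ y i) ∧
      (∀ i, BlowUp.IsEffCartierIdeal (y' i).ker) ∧
      Nonempty (CohB1.tensorMod L (ClSub.idealMod (∏ i, (y' i).ker)) ≅
        ClSub.idealMod (∏ i, (y i).ker)) := by
  obtain ⟨π, hπ⟩ := IsDiscreteValuationRing.exists_irreducible R
  have hln : IsLocallyNoetherian X := LocallyOfFiniteType.isLocallyNoetherian p
  have hD := isEff_prod Finset.univ (fun i => (y i).ker) hc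
  have hDj : BlowUp.IsEffCartierIdeal ((∏ i, (y i).ker).comap j) := by
    rw [comap_prod]
    exact isEff_prod Finset.univ _ hcj
  obtain ⟨D', hD', hcomap, hflat, hiso⟩ := DivLift.exists_divisor hj hD hDj hL ht (by
    intro N hN h
    apply hH N hN
    rw [h, Finset.prod_inv_distrib, ← cl_prod Finset.univ _ hcj]
    congr 1
    exact cl_congr (comap_prod _ _ _) hDj (isEff_prod Finset.univ _ hcj))
  have hmax : ∀ i, stalkIdeal D' (y i (closedPoint R)) ⊔
      Ideal.span {X.presheaf.germ ⊤ (y i (closedPoint R)) trivial (fn p π)} =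
        maximalIdeal (X.presheaf.stalk (y i (closedPoint R))) := by
    intro i
    rw [sup_eq_of_comap_eq hj hπ hcomap (apply_closedPoint (hy i)), stalkIdeal_prod_ker hy hd,
      stalkIdeal_ker_sup (hy i) hπ.maximalIdeal_eq]
  choose y' hy' hres hle using fun i => exists_section_of_divisor hj (D' := D') (hy i) hπ (by
    rw [hcomap]
    refine Scheme.IdealSheafData.comap_mono j ?_
    rw [le_iff_stalkIdeal]
    intro x
    rw [stalkIdeal_prod]
    exact (Ideal.prod_le_inf).trans (Finset.inf_le (Finset.mem_univ i))) (hmax i)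
  have hcl : ∀ i, y' i (closedPoint R) = y i (closedPoint R) := fun i => closedPoint_eq (hres i)
  have hd' : Function.Injective fun i => y' i (closedPoint R) := by
    intro a b hab
    apply hd
    change y a (closedPoint R) = y b (closedPoint R)
    rw [← hcl a, ← hcl b]
    exact hab
  -- stalks on the closed fibre
  have hstalk : ∀ x : X, p x = closedPoint R → stalkIdeal D' x = stalkIdeal (∏ i, (y' i).ker) x := by
    intro x hx
    by_cases hxi : ∃ i, y' i (closedPoint R) = x
    · obtain ⟨i, rfl⟩ := hxi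
      rw [stalkIdeal_prod_ker hy' hd' i]
      apply le_antisymm (stalkIdeal_mono (hle i) _)
      have hmax' : stalkIdeal D' (y' i (closedPoint R)) ⊔
          Ideal.span {X.presheaf.germ ⊤ (y' i (closedPoint R)) trivial (fn p π)} =
            maximalIdeal (X.presheaf.stalk (y' i (closedPoint R))) := by
        rw [hcl i]; exact hmax i
      have hKm : stalkIdeal (y' i).ker (y' i (closedPoint R)) ≤
          maximalIdeal (X.presheaf.stalk (y' i (closedPoint R))) := by
        rw [← stalkIdeal_ker_sup (hy' i) hπ.maximalIdeal_eq]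
        exact le_sup_left
      refine Submodule.le_of_le_smul_of_le_jacobson_bot
        (I := maximalIdeal (X.presheaf.stalk (y' i (closedPoint R)))) ?_
        (maximalIdeal_le_jacobson _) ?_
      · have : IsNoetherianRing (X.presheaf.stalk (y' i (closedPoint R))) := inferInstance
        exact (isNoetherianRing_iff_ideal_fg _).1 this _
      · intro a ha
        have h1 := hKm ha
        rw [← hmax', Submodule.mem_sup] at h1
        obtain ⟨d, hd₁, e', he', rfl⟩ := h1
        obtain ⟨e, rfl⟩ := Ideal.mem_span_singleton'.1 he'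
        refine Submodule.add_mem_sup hd₁ ?_
        have h2 : X.presheaf.germ ⊤ (y' i (closedPoint R)) trivial (fn p π) * e ∈
            stalkIdeal (y' i).ker (y' i (closedPoint R)) := by
          have h3 := (Ideal.add_mem_iff_right _ (stalkIdeal_mono (hle i) _ hd₁)).1 ha
          rwa [mul_comm] at h3
        have h4 := mem_ker_of_mul_mem hπ (hy' i) h2
        rw [mul_comm]
        exact Submodule.smul_mem_smul (germ_fn_mem (apply_closedPoint (hy' i)) hπ.maximalIdeal_eq) h4
    · push Not at hxi
      rw [stalkIdeal_prod_ker_eq_top hy' hx hxi]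
      apply eq_of_specializes_aux (germ_fn_mem hx hπ.maximalIdeal_eq)
      rw [sup_eq_of_comap_eq hj hπ hcomap hx, stalkIdeal_prod_ker_eq_top hy hx
        (fun i h => hxi i ((hcl i).trans h)), top_sup_eq]
  have hDeq : D' = ∏ i, (y' i).ker := by
    have h1 : ({x | stalkIdeal D' x ≤ stalkIdeal (∏ i, (y' i).ker) x} : Set X) ∩
        {x | stalkIdeal (∏ i, (y' i).ker) x ≤ stalkIdeal D' x} = Set.univ := by
      apply eq_univ_of_range_subset hj ((isOpen_stalkIdeal_le _ _).inter (isOpen_stalkIdeal_le _ _))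
      intro x hx
      rw [mem_range_iff hj] at hx
      exact ⟨(hstalk x hx).le, (hstalk x hx).ge⟩
    apply ext_stalkIdeal
    intro x
    have h2 : x ∈ ({x | stalkIdeal D' x ≤ stalkIdeal (∏ i, (y' i).ker) x} : Set X) ∩
        {x | stalkIdeal (∏ i, (y' i).ker) x ≤ stalkIdeal D' x} := h1 ▸ Set.mem_univ x
    exact le_antisymm h2.1 h2.2
  refine ⟨y', hy', hres, ?_, ?_⟩
  · intro i
    have h1 : {x | Groth.Agent.Fga.RelCart.Eff (y' i).ker x} = Set.univ := by
      apply eq_univ_of_range_subset hj (Groth.Agent.Fga.RelCart.isOpen_eff _)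
      intro x hx
      rw [mem_range_iff hj] at hx
      by_cases hxi : y' i (closedPoint R) = x
      · obtain ⟨g, hg, h2⟩ := exists_stalkIdeal_eq_span hD' x
        refine ⟨g, hg, ?_⟩
        rw [← h2, hDeq, ← hxi, stalkIdeal_prod_ker hy' hd' i]
      · refine ⟨1, one_mem _, ?_⟩
        rw [stalkIdeal_ker_eq_top (hy' i) hx hxi, Ideal.span_singleton_one]
    rw [isEffCartierIdeal_iff_stalkIdeal]
    intro x
    have h2 : x ∈ {x | Groth.Agent.Fga.RelCart.Eff (y' i).ker x} := h1 ▸ Set.mem_univ x
    exact h2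
  · rwa [hDeq] at hiso

include hj in
/-- **Lifting of sums of sections**, in the Picard group. -/
theorem exists_sections_pic [HenselianLocalRing R] [IsProper p] [Flat p] {ι : Type*} [Fintype ι]
    (y : ι → (Spec (CommRingCat.of R) ⟶ X)) (hy : ∀ i, y i ≫ p = 𝟙 _)
    (hc : ∀ i, BlowUp.IsEffCartierIdeal (y i).ker)
    (hd : Function.Injective fun i => y i (closedPoint R)) (l : Pic X) (ht : pull j l = 1)
    (hcj : ∀ i, BlowUp.IsEffCartierIdeal ((y i).ker.comap j))
    (hH : ∀ (N : Z.Modules) (hN : PicF.IsInvertible N),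
      mk N hN = ∏ i, (cl ((y i).ker.comap j) (hcj i))⁻¹ → Subsingleton (Coh.HH Z N 1)) :
    ∃ (y' : ι → (Spec (CommRingCat.of R) ⟶ X)) (hc' : ∀ i, BlowUp.IsEffCartierIdeal (y' i).ker),
      (∀ i, y' i ≫ p = 𝟙 _) ∧
      (∀ i, Spec.map (CommRingCat.ofHom (residue R)) ≫ y' i =
        Spec.map (CommRingCat.ofHom (residue R)) ≫ y i) ∧
      l = ∏ i, ((cl (y' i).ker (hc' i))⁻¹ * cl (y i).ker (hc i)) := by
  obtain ⟨L, hL, rfl⟩ := exists_mk l
  rw [pull_mk, mk_eq_one_iff] at ht
  obtain ⟨y', hy', hres, hc', hiso⟩ := exists_sections hj y hy hc hd hL ht hcj hH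
  refine ⟨y', hc', hy', hres, ?_⟩
  have hE := isEff_prod Finset.univ (fun i => (y' i).ker) hc'
  have hD := isEff_prod Finset.univ (fun i => (y i).ker) hc
  have h1 : mk L hL * cl (∏ i, (y' i).ker) hE = cl (∏ i, (y i).ker) hD := by
    unfold cl
    rw [mk_mul_mk, mk_eq_iff]
    exact hiso
  rw [cl_prod Finset.univ _ hc', cl_prod Finset.univ _ hc] at h1
  rw [Finset.prod_mul_distrib, Finset.prod_inv_distrib, ← h1, mul_comm (mk L hL), inv_mul_cancel_left]

end Main

end Groth.Agent.Sga7.H543.Lift
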