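import Groth.Agent.Sga7.H543.SecLiftMain
import Groth.Agent.Sga7.H591.Lift

/-!
# `LIFT`
-/

set_option autoImplicit false
universe u

namespace Groth.Agent.Sga7.H543.LiftMain

theorem lift : H732.Hedge.LIFT.{u} := H591.Lift.lift_of SecLiftMain.secLift

end Groth.Agent.Sga7.H543.LiftMain
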