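import Groth.Agent.Sga7.H543.Lift
import Groth.Agent.Sga7.H591.LiftB

/-!
# `SecLift`
-/

set_option autoImplicit false
universe u
open CategoryTheory CategoryTheory.Limits AlgebraicGeometry Opposite TopologicalSpace

namespace Groth.Agent.Sga7.H543.SecLiftMain

open Groth.Agent.Grpsch.PicGrp IsLocalRing

theorem secLift : H591.LiftB.SecLift.{u} := by
  intro R _ _ _ _ X Z p _ _ j q hj n y hy hc hd L hL hH
  have hln : IsLocallyNoetherian X := LocallyOfFiniteType.isLocallyNoetherian p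
  have hcj : ∀ i, BlowUp.IsEffCartierIdeal ((y i).ker.comap j) := fun i => Lift.isEff_comap hj (hy i) (hc i)
  obtain ⟨y', hc', hy', hres, he⟩ := Lift.exists_sections_pic hj y hy hc hd L hL hcj
    (fun N hN h => hH hcj N hN h)
  refine ⟨y', hc', hy', hres, ?_⟩
  rw [he, Finset.prod_mul_distrib, Finset.prod_inv_distrib]
  change (∏ i, Lift.cl (y' i).ker (hc' i))⁻¹ * (∏ i, Lift.cl (y i).ker (hc i)) * ∏ i, Lift.cl (y' i).ker (hc' i) =
    ∏ i, Lift.cl (y i).ker (hc i)
  rw [mul_comm, mul_inv_cancel_left]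

end Groth.Agent.Sga7.H543.SecLiftMain
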